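import Cfsg.Prelude.Def_LieTypeChar

/-!
# The list of doubly transitive actions of groups of Lie type
-/

set_option autoImplicit false

namespace Cfsg.Agent.T2R

/-- The conclusion of the classification of doubly transitive actions, for degree `n`. -/
def Concl (G : Type*) [Group G] (n : ℕ) : Prop :=
    (∃ (F : Type) (_ : Field F) (_ : Fintype F) (l : ℕ), 3 ≤ l ∧ Nonempty (G ≃* Matrix.ProjectiveSpecialLinearGroup (Fin l) F) ∧ n * (Fintype.card F - 1) = Fintype.card F ^ l - 1) ∨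
    (∃ (F : Type) (_ : Field F) (_ : Fintype F), 4 ≤ Fintype.card F ∧ Nonempty (G ≃* Matrix.ProjectiveSpecialLinearGroup (Fin 2) F) ∧ n = Fintype.card F + 1) ∨
    (∃ (F : Type) (_ : Field F) (_ : Fintype F) (q : ℕ), 3 ≤ q ∧ Fintype.card F = q ^ 2 ∧ Nonempty (G ≃* Cfsg.PSU 3 F q) ∧ n = q ^ 3 + 1) ∨
    (∃ (F : Type) (_ : Field F) (_ : Fintype F) (m : ℕ), 1 ≤ m ∧ Fintype.card F = 2 ^ (2 * m + 1) ∧ Nonempty (G ≃* ↥(Cfsg.Lie.Sz F (2 ^ (m + 1)))) ∧ n = Fintype.card F ^ 2 + 1) ∨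
    (∃ (K : Type) (_ : Field K) (_ : Fintype K) (m : ℕ), 1 ≤ m ∧ Fintype.card K = 3 ^ (2 * m + 1) ∧ Nonempty (G ≃* ↥(Cfsg.Lie.twistedG2 K (3 ^ m))) ∧ n = Fintype.card K ^ 3 + 1) ∨
    (∃ (F : Type) (_ : Field F) (_ : Fintype F), Fintype.card F = 9 ∧ Nonempty (G ≃* Matrix.ProjectiveSpecialLinearGroup (Fin 2) F) ∧ n = 6) ∨
    (∃ (F : Type) (_ : Field F) (_ : Fintype F), Fintype.card F = 11 ∧ Nonempty (G ≃* Matrix.ProjectiveSpecialLinearGroup (Fin 2) F) ∧ n = 11) ∨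
    (∃ (F : Type) (_ : Field F) (_ : Fintype F), Fintype.card F = 2 ∧ Nonempty (G ≃* Matrix.ProjectiveSpecialLinearGroup (Fin 4) F) ∧ n = 8) ∨
    (∃ (F : Type) (_ : Field F) (_ : Fintype F) (k : ℕ), 3 ≤ k ∧ Fintype.card F = 2 ∧ Nonempty (G ≃* Cfsg.PSp k F) ∧ (n = 2 ^ (k - 1) * (2 ^ k + 1) ∨ n = 2 ^ (k - 1) * (2 ^ k - 1)))

end Cfsg.Agent.T2R
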