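import Cfsg.Agent.Lib.T2.Des
import Cfsg.Agent.Lib.Char.Gen
import Cfsg.Agent.Lib.Chev.TorCount

/-!
# Generalities on doubly transitive actions
-/

set_option autoImplicit false

namespace Cfsg.Agent.T2R

open MulAction Cfsg.Agent.Char Cfsg.Agent.T2 Subgroup

variable {G Ω X : Type*} [Group G] [MulAction G Ω]

/-- Orbit counting. -/
theorem sum_fix [Fintype G] [Finite Ω] :
    ∑ g : G, Nat.card (fixedBy Ω g) = Nat.card (orbitRel.Quotient G Ω) * Nat.card G := by
  classical
  let _ := Fintype.ofFinite (orbitRel.Quotient G Ω)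
  let _ : ∀ g : G, Fintype (fixedBy Ω g) := fun g => Fintype.ofFinite _
  simp only [Nat.card_eq_fintype_card]
  exact sum_card_fixedBy_eq_card_orbits_mul_card_group G Ω

theorem card_fix_prod [MulAction G X] (g : G) :
    Nat.card (fixedBy (Ω × X) g) = Nat.card (fixedBy Ω g) * Nat.card (fixedBy X g) := by
  rw [← Nat.card_prod]
  exact Nat.card_congr ((Equiv.subtypeEquivRight fun p => by simp [Prod.ext_iff]).trans
    (Equiv.subtypeProdEquivProd (p := fun a : Ω => a ∈ fixedBy Ω g) (q := fun a : X => a ∈ fixedBy X g)))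

theorem card_fix_one : Nat.card (fixedBy Ω (1 : G)) = Nat.card Ω := by
  rw [fixedBy_one_eq_univ]; exact Nat.card_congr (Equiv.Set.univ Ω)

theorem smul_eq_of_card_fix [Finite Ω] {g : G} (h : Nat.card (fixedBy Ω g) = Nat.card Ω) (a : Ω) : g • a = a := by
  have : fixedBy Ω g = Set.univ := Set.eq_of_subset_of_ncard_le (Set.subset_univ _) (by
    rw [Set.ncard_univ, ← h]; rfl)
  exact show a ∈ fixedBy Ω g from this ▸ trivial

/-- The permutation character minus the trivial character. -/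
noncomputable def chi (G Ω : Type*) [Group G] [MulAction G Ω] : G → ℂ := fun g => (Nat.card (fixedBy Ω g) : ℂ) - 1

theorem chi_one : chi G Ω 1 = (Nat.card Ω : ℂ) - 1 := by rw [chi, card_fix_one]

theorem isIrr_chi [Finite G] [Finite Ω] [Nontrivial Ω] (h : Two G Ω) : IsIrrCharacter G (chi G Ω) := by
  classical
  let _ := Fintype.ofFinite G
  obtain ⟨a, b, hab⟩ := exists_pair_ne Ω
  have h1 : Nat.card (orbitRel.Quotient G Ω) = 1 := by
    rw [Nat.card_eq_one_iff_exists]
    refine ⟨Quotient.mk _ a, fun x => ?_⟩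
    induction x using Quotient.inductionOn with
    | _ x => exact Quotient.sound (h.trans a x)
  have h2 : Nat.card (orbitRel.Quotient G (Ω × Ω)) = 2 := by
    rw [Nat.card_eq_two_iff]
    refine ⟨Quotient.mk _ (a, a), Quotient.mk _ (a, b), fun e => ?_, Set.eq_univ_of_forall fun x => ?_⟩
    · obtain ⟨g, hg⟩ := Quotient.exact e
      have := Prod.ext_iff.1 hg
      exact hab (smul_left_cancel g (this.1.trans this.2.symm))
    · induction x using Quotient.inductionOn with
      | _ x =>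
        obtain ⟨x, y⟩ := x
        by_cases e : x = y
        · obtain ⟨g, hg⟩ := h.trans a x
          exact Or.inl (Quotient.sound ⟨g, Prod.ext hg (hg.trans e)⟩)
        · obtain ⟨g, hg⟩ := h a b x y hab e
          exact Or.inr (Quotient.sound ⟨g, Prod.ext hg.1 hg.2⟩)
  have s1 := sum_fix (G := G) (Ω := Ω)
  have s2 := sum_fix (G := G) (Ω := Ω × Ω)
  simp only [card_fix_prod, h1, h2] at s1 s2
  have t1 := congrArg (Nat.cast : ℕ → ℂ) s1
  have t2 := congrArg (Nat.cast : ℕ → ℂ) s2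
  push_cast at t1 t2
  refine isIrr_of_isGen (isGen_sub (isGen_of_isChar (isChar_perm Ω)) isGen_one) ?_ ?_
  · have e : ∀ g : G, chi G Ω g * (starRingEnd ℂ) (chi G Ω g) =
        (Nat.card (fixedBy Ω g) : ℂ) * Nat.card (fixedBy Ω g) - 2 * Nat.card (fixedBy Ω g) + 1 := fun g => by
      simp only [chi, map_sub, map_natCast, map_one]; ring
    rw [classInner, Finset.sum_congr rfl fun g _ => e g, Finset.sum_add_distrib, Finset.sum_sub_distrib,
      ← Finset.mul_sum, t1, t2, Finset.sum_const, Finset.card_univ, ← Nat.card_eq_fintype_card, nsmul_eq_mul]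
    have := natCard_ne_zero (G := G)
    field_simp
    ring
  · have : 1 < Nat.card Ω := Finite.one_lt_card
    rw [chi_one]
    simp only [Complex.sub_re, Complex.natCast_re, Complex.one_re, sub_nonneg]
    exact_mod_cast this.le

theorem nontrivial_of_faithful [FaithfulSMul G Ω] [Nontrivial G] : Nontrivial Ω := by
  by_contra h
  have := not_nontrivial_iff_subsingleton.1 h
  obtain ⟨g, hg⟩ := exists_ne (1 : G)
  exact hg (eq_of_smul_eq_smul (α := Ω) fun a => Subsingleton.elim _ _)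

/-- A non-trivial representation of degree `n - 1`. -/
theorem exists_rep [Finite G] [Finite Ω] [FaithfulSMul G Ω] [Nontrivial G] (h : Two G Ω) :
    ∃ (k : ℕ) (ρ : Representation ℂ G (Fin k → ℂ)), k + 1 = Nat.card Ω ∧ ∃ g, ρ g ≠ 1 := by
  have := nontrivial_of_faithful (G := G) (Ω := Ω)
  obtain ⟨k, ρ, -, e⟩ := isIrr_chi h
  have e1 : (k : ℂ) = (Nat.card Ω : ℂ) - 1 := by rw [← chi_one (G := G), ← e]; simp
  refine ⟨k, ρ, by exact_mod_cast eq_sub_iff_add_eq.1 e1, ?_⟩
  by_contra hc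
  push Not at hc
  obtain ⟨g, hg⟩ := exists_ne (1 : G)
  have e2 : chi G Ω g = chi G Ω 1 := by
    rw [← e, Representation.character, Representation.character, hc, hc]
  rw [chi_one, chi, sub_left_inj] at e2
  exact hg (eq_of_smul_eq_smul (α := Ω) fun a => by
    rw [smul_eq_of_card_fix (by exact_mod_cast e2) a, one_smul])

theorem card_eq_or_trans [MulAction G X] [Finite Ω] [Finite X] (h : Two G Ω) (h' : Two G X) (x₀ : X) :
    Nat.card Ω = Nat.card X ∨ ∀ a b : Ω, ∃ p : G, p • x₀ = x₀ ∧ p • a = b := by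
  refine or_iff_not_imp_right.2 fun hP => ?_
  obtain ⟨I, hI, a, b, x, h1, h2⟩ := exists_inc' hP
  obtain ⟨g, rfl⟩ := h.trans a b
  refine le_antisymm (h.card_le hI h1 h2) (h'.card_le (I := fun x a => I a x) (fun g x a => hI g a x) h1
    (b₀ := g⁻¹ • x) fun e => h2 ?_)
  simpa using hI g _ _ e

theorem card_dvd_of_trans [Finite G] [Finite Ω] [Nonempty Ω] {B : Subgroup G}
    (hB : ∀ a b : Ω, ∃ p ∈ B, p • a = b) : Nat.card Ω ∣ Nat.card B := by
  obtain ⟨a⟩ := ‹Nonempty Ω›
  have : orbit B a = Set.univ := Set.eq_univ_of_forall fun b => by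
    obtain ⟨p, hp, e⟩ := hB a b
    exact ⟨⟨p, hp⟩, e⟩
  exact ⟨_, by rw [← ncard_orbit_mul B a, this, Set.ncard_univ]⟩

theorem index_stab [Finite G] [Finite Ω] (h : Two G Ω) {a b : Ω} (hab : a ≠ b) :
    (stabilizer G (a, b)).index = Nat.card Ω * (Nat.card Ω - 1) := by
  classical
  let _ := Fintype.ofFinite Ω
  have : orbit G (a, b) = (Finset.univ : Finset Ω).offDiag := by
    ext ⟨x, y⟩
    simp only [Finset.coe_offDiag, Finset.coe_univ, Set.mem_offDiag, Set.mem_univ, true_and]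
    refine ⟨fun ⟨g, hg⟩ e => hab ?_, fun e => ?_⟩
    · have := Prod.ext_iff.1 hg
      exact smul_left_cancel g (this.1.trans (e.trans this.2.symm))
    · obtain ⟨g, hg⟩ := h a b x y hab e
      exact ⟨g, Prod.ext hg.1 hg.2⟩
  rw [index_stabilizer, this, Set.ncard_coe_finset, Finset.offDiag_card, Finset.card_univ,
    Nat.card_eq_fintype_card, Nat.mul_sub_one]

theorem mul_pred_dvd [Finite G] [Finite Ω] [Nontrivial Ω] (h : Two G Ω) :
    Nat.card Ω * (Nat.card Ω - 1) ∣ Nat.card G := by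
  obtain ⟨a, b, hab⟩ := exists_pair_ne Ω
  exact index_stab h hab ▸ index_dvd_card _

theorem card_dvd_factorial [Finite Ω] [FaithfulSMul G Ω] : Nat.card G ∣ (Nat.card Ω).factorial := by
  rw [← Nat.card_perm]
  exact card_dvd_of_injective (toPermHom G Ω) toPerm_injective

/-- A self-centralizing Hall subgroup of order prime to the degree. -/
theorem dvd_or_coprime [Finite G] [Finite Ω] (h : Two G Ω) {T : Subgroup G}
    (hT : ∀ t ∈ T, t ≠ 1 → centralizer {t} = T) (hi : (Nat.card T).Coprime T.index)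
    (hn : (Nat.card T).Coprime (Nat.card Ω)) :
    Nat.card T ∣ Nat.card Ω - 1 ∨ (Nat.card T).Coprime (Nat.card Ω - 1) := by
  classical
  refine or_iff_not_imp_right.2 fun hc => ?_
  obtain ⟨l, hl, l1, l2⟩ := Nat.Prime.not_coprime_iff_dvd.1 hc
  have := Fact.mk hl
  obtain ⟨P⟩ : Nonempty (Sylow l T) := inferInstance
  let Q : Subgroup G := (P : Subgroup T).map T.subtype
  have hQT : Q ≤ T := map_subtype_le _
  have hQi : ¬ l ∣ Q.index := by
    rw [index_map_subtype, hl.dvd_mul]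
    exact fun e => e.elim P.not_dvd_index fun e => hl.one_lt.ne' (Nat.eq_one_of_dvd_coprimes hi l1 e)
  obtain ⟨a, ha⟩ := (P.isPGroup'.map T.subtype).nonempty_fixed_point_of_prime_not_dvd_card Ω
    fun e => hl.one_lt.ne' (Nat.eq_one_of_dvd_coprimes hn l1 e)
  have ha' : ∀ x ∈ Q, x • a = a := fun x hx => ha ⟨x, hx⟩
  have hu : ∀ b, (∀ x ∈ Q, x • b = b) → b = a := fun b hb => by
    by_contra e
    refine hQi (dvd_trans ?_ (index_dvd_of_le (K := stabilizer G (b, a)) fun x hx => Prod.ext (hb x hx) (ha' x hx)))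
    rw [index_stab h e]
    exact l2.mul_left _
  have hcm : ∀ x ∈ T, ∀ t ∈ T, x * t = t * x := fun x hx t ht => by
    by_cases e : t = 1
    · simp [e]
    · exact mem_centralizer_singleton_iff.1 (hT t ht e ▸ hx)
  have hTa : ∀ t ∈ T, t • a = a := fun t ht => hu _ fun x hx => by
    rw [← mul_smul, hcm x (hQT hx) t ht, mul_smul, ha' x hx]
  have hf : ∀ t ∈ T, t ≠ 1 → ∀ b, t • b = b → b = a := fun t ht h1 b hb => by
    obtain ⟨g, rfl⟩ := h.trans a b
    have ho : orderOf t ≠ 1 := fun e => h1 (orderOf_eq_one_iff.1 e)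
    obtain ⟨r, hr, r1⟩ := Nat.exists_prime_and_dvd ho
    have h3 := orderOf_pow_orderOf_div (orderOf_pos t).ne' r1
    set s := t ^ (orderOf t / r)
    have hs : s ∈ T := pow_mem ht _
    have hs1 : s ≠ 1 := fun e => hr.one_lt.ne (by rw [← h3, e, orderOf_one])
    have hsb : g⁻¹ * s * g ∈ stabilizer G a := by
      rw [mem_stabilizer_iff, mul_smul, mul_smul, inv_smul_eq_iff]
      exact pow_mem (show t ∈ stabilizer G (g • a) from hb) _
    obtain ⟨k, hk⟩ := Chev.exists_conj_mem_of_prime (T := T.subgroupOf (stabilizer G a)) hr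
      (fun e => hr.one_lt.ne' (Nat.eq_one_of_dvd_coprimes hi (r1.trans (T.orderOf_dvd_natCard ht))
        (e.trans (relIndex_dvd_index_of_le hTa)))) (x := ⟨_, hsb⟩) (k := 1) (Subtype.ext (by
          simp only [pow_one, SubmonoidClass.mk_pow, OneMemClass.coe_one]
          rw [← MulAut.conj_inv_apply, ← map_pow, ← h3, pow_orderOf_eq_one, map_one]))
    have hk' : (g * k)⁻¹ * s * (g * k) ∈ T := by simpa [mem_subgroupOf, mul_assoc] using hk
    have e := hT _ hk' fun e => hs1 (by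
      rwa [← MulAut.conj_inv_apply, map_eq_one_iff _ (MulEquiv.injective _)] at e)
    refine hu _ fun x hx => ?_
    have h4 : (g * k)⁻¹ * x * (g * k) ∈ T := e ▸ mem_centralizer_singleton_iff.2 (by
      have := hcm x (hQT hx) s hs
      calc _ = (g * k)⁻¹ * (x * s) * (g * k) := by group
        _ = _ := by rw [this]; group)
    have h5 := hTa _ h4
    rwa [mul_smul, mul_smul, inv_smul_eq_iff, mul_smul, show (k : G) • a = a from k.2] at h5
  let _ := Fintype.ofFinite T
  have s1 := sum_fix (G := T) (Ω := Ω)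
  have s2 : ∀ t ∈ Finset.univ.erase (1 : T), Nat.card (fixedBy Ω t) = 1 :=
    fun t ht => Nat.card_eq_one_iff_exists.2 ⟨⟨a, hTa _ t.2⟩, fun b => Subtype.ext
      (hf _ t.2 (fun e => Finset.ne_of_mem_erase ht (Subtype.ext e)) _ b.2)⟩
  rw [← Finset.add_sum_erase _ _ (Finset.mem_univ 1), card_fix_one, Finset.sum_congr rfl s2, Finset.sum_const,
    Finset.card_erase_of_mem (Finset.mem_univ _), Finset.card_univ, ← Nat.card_eq_fintype_card, smul_eq_mul,
    mul_one] at s1
  have : Nonempty Ω := ⟨a⟩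
  have p1 : 0 < Nat.card T := Nat.card_pos
  have p2 : 0 < Nat.card Ω := Nat.card_pos
  refine (Nat.dvd_add_right (dvd_refl (Nat.card T))).1 ⟨Nat.card (orbitRel.Quotient T Ω), ?_⟩
  rw [mul_comm, ← s1]
  omega

theorem four_cases {N A B C : ℕ} (h : N ∣ A * B * C) (hAB : A.Coprime B) (hA : A ∣ N ∨ A.Coprime N)
    (hB : B ∣ N ∨ B.Coprime N) (h1 : 0 < A) (h2 : 0 < B) :
    (∃ k y, N = A * B * k ∧ C = k * y) ∨ (∃ k y, N = A * k ∧ C = k * y) ∨ (∃ k y, N = B * k ∧ C = k * y) ∨ N ∣ C := by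
  rcases hA with hA | hA <;> rcases hB with hB | hB
  · obtain ⟨k, rfl⟩ := hAB.mul_dvd_of_dvd_of_dvd hA hB
    obtain ⟨y, hy⟩ := Nat.dvd_of_mul_dvd_mul_left (by positivity) h
    exact Or.inl ⟨k, y, rfl, hy⟩
  · obtain ⟨k, rfl⟩ := hA
    rw [mul_assoc] at h
    obtain ⟨y, hy⟩ := (hB.coprime_mul_left_right.symm).dvd_of_dvd_mul_left (Nat.dvd_of_mul_dvd_mul_left h1 h)
    exact Or.inr (Or.inl ⟨k, y, rfl, hy⟩)
  · obtain ⟨k, rfl⟩ := hB
    rw [mul_comm A, mul_assoc] at h
    obtain ⟨y, hy⟩ := (hA.coprime_mul_left_right.symm).dvd_of_dvd_mul_left (Nat.dvd_of_mul_dvd_mul_left h2 h)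
    exact Or.inr (Or.inr (Or.inl ⟨k, y, rfl, hy⟩))
  · exact Or.inr (Or.inr (Or.inr ((Nat.Coprime.mul_left hA hB).symm.dvd_of_dvd_mul_left h)))

/-- If `n` divides `p ^ e * c` and exceeds `p ^ j * c`, then `p ^ (j + 1)` divides `n`. -/
theorem pow_dvd_of_lt {p e c j n : ℕ} (hp : p.Prime) (hc : 0 < c) (h : n ∣ p ^ e * c) (hn : p ^ j * c < n) :
    p ^ (j + 1) ∣ n := by
  obtain ⟨n₁, n₂, d1, d2, rfl⟩ := (Nat.dvd_mul).1 h
  obtain ⟨i, -, rfl⟩ := (Nat.dvd_prime_pow hp).1 d1
  have := Nat.le_of_dvd hc d2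
  have h3 : p ^ j < p ^ i := lt_of_mul_lt_mul_right (hn.trans_le (Nat.mul_le_mul_left _ this)) (Nat.zero_le _)
  exact (pow_dvd_pow p ((Nat.pow_lt_pow_iff_right hp.one_lt).1 h3)).mul_right _

theorem transport {H : Type*} [Group H] (e : G ≃* H) [FaithfulSMul G Ω] (h : Two G Ω) :
    ∃ _ : MulAction H Ω, FaithfulSMul H Ω ∧ Two H Ω := by
  let i : MulAction H Ω := MulAction.compHom Ω e.symm.toMonoidHom
  have hs : ∀ (x : H) (a : Ω), x • a = e.symm x • a := fun _ _ => rfl
  exact ⟨i, ⟨fun {x y} hxy => e.symm.injective (eq_of_smul_eq_smul (α := Ω) fun a => hxy a)⟩,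
    h.comp fun g => ⟨e g, fun a => by rw [hs, e.symm_apply_apply]⟩⟩

end Cfsg.Agent.T2R
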