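import Cfsg.Agent.S2426
import Cfsg.Agent.Lib.SL2.PSL
import Cfsg.Agent.Lib.GLn.Spec2
import Cfsg.Agent.Lib.R3.Ident
import Cfsg.Agent.Lib.LieId.Trans

/-!
# The isomorphisms `L₂(4) ≅ L₂(5)` and `L₂(7) ≅ L₃(2)`
-/

set_option autoImplicit false

namespace Cfsg.Agent.T2R

open Matrix Cfsg.Agent.SL2
open scoped MatrixGroups

/-- Powers of two elements of order seven. -/
def tb : Bool → Fin 7 → Matrix (Fin 3) (Fin 3) (ZMod 2)
  | true => ![!![1, 0, 0; 0, 1, 0; 0, 0, 1], !![0, 0, 1; 0, 1, 1; 1, 1, 0], !![1, 1, 0; 1, 0, 1; 0, 1, 0],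
      !![0, 1, 0; 1, 1, 1; 0, 1, 1], !![0, 1, 1; 1, 0, 0; 1, 0, 1], !![1, 0, 1; 0, 0, 1; 1, 1, 1],
      !![1, 1, 1; 1, 1, 0; 1, 0, 0]]
  | false => ![!![1, 0, 0; 0, 1, 0; 0, 0, 1], !![0, 0, 1; 1, 0, 1; 0, 1, 0], !![0, 1, 0; 0, 1, 1; 1, 0, 1],
      !![1, 0, 1; 1, 1, 1; 0, 1, 1], !![0, 1, 1; 1, 1, 0; 1, 1, 1], !![1, 1, 1; 1, 0, 0; 1, 1, 0],
      !![1, 1, 0; 0, 0, 1; 1, 0, 0]]

theorem det_tb (b : Bool) (t : ZMod 7) : (tb b t).det = 1 := by
  rw [det_fin_three]
  revert b t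
  decide +kernel

theorem tb_add : ∀ (b : Bool) (t u : ZMod 7), tb b t * tb b u = tb b (t + u : ZMod 7) := by decide +kernel

theorem tb_w : ∀ (b : Bool) (t s : ZMod 7), t * s = 1 → ∀ u : ZMod 7,
    tb b t * tb (!b) (-s : ZMod 7) * tb b t * tb b u =
      tb (!b) (-(s ^ 2 * u) : ZMod 7) * (tb b t * tb (!b) (-s : ZMod 7) * tb b t) := by decide +kernel

theorem tb_sq : tb true 1 * tb false (-1 : ZMod 7) * tb true 1 * (tb true 1 * tb false (-1 : ZMod 7) * tb true 1) = 1 ∧
    tb true 1 ≠ 1 := by decide +kernel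

theorem neg_one_eq : (-1 : Matrix (Fin 2) (Fin 2) (ZMod 7)) =
    !![1, 1; 0, 1] * !![1, 0; -1, 1] * !![1, 1; 0, 1] * (!![1, 1; 0, 1] * !![1, 0; -1, 1] * !![1, 1; 0, 1]) := by
  decide +kernel

theorem two_ne_zero7 : (2 : ZMod 7) ≠ 0 := by decide

/-- Images of the generators. -/
def gn (p : Bool × ZMod 7) : SL(3, ZMod 2) := ⟨tb p.1 p.2, det_tb _ _⟩

theorem exists_hom [Fact (Nat.Prime 7)] : ∃ f : SL(2, ZMod 7) →* SL(3, ZMod 2), f (-1) = 1 ∧ ∃ g, f g ≠ 1 := by
  obtain ⟨e, e1, e2⟩ := S2426.result (K := ZMod 7)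
  refine ⟨(PresentedGroup.toGroup (f := gn) ?_).comp e.symm.toMonoidHom, ?_, e (PresentedGroup.of (true, 1)), ?_⟩
  · rintro r (⟨b, t, u, rfl⟩ | ⟨b, t, u, ht, rfl⟩) <;> simp only [map_mul, map_inv, FreeGroup.lift_apply_of]
    · exact mul_inv_eq_one.2 (Subtype.ext (tb_add b t u))
    · rw [mul_inv_eq_one, mul_inv_eq_iff_eq_mul]
      exact Subtype.ext (tb_w b t t⁻¹ (mul_inv_cancel₀ ht) u)
  · have : (-1 : SL(2, ZMod 7)) = e (PresentedGroup.of (true, 1) * PresentedGroup.of (false, -1) *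
        PresentedGroup.of (true, 1) * (PresentedGroup.of (true, 1) * PresentedGroup.of (false, -1) *
        PresentedGroup.of (true, 1))) := Subtype.ext (by
      simp only [map_mul, Matrix.SpecialLinearGroup.coe_mul, e1, e2]
      exact neg_one_eq)
    rw [this]
    simp only [MonoidHom.comp_apply, MulEquiv.coe_toMonoidHom, MulEquiv.symm_apply_apply, map_mul,
      PresentedGroup.toGroup.of]
    exact Subtype.ext tb_sq.1
  · simp only [MonoidHom.comp_apply, MulEquiv.coe_toMonoidHom, MulEquiv.symm_apply_apply, PresentedGroup.toGroup.of]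
    exact fun h => absurd (congrArg Subtype.val h) tb_sq.2

theorem iso27 {F : Type*} [Field F] [Fintype F] (hF : Fintype.card F = 7) :
    Nonempty (PSL(2, F) ≃* ProjectiveSpecialLinearGroup (Fin 3) (ZMod 2)) := by
  have : Fact (Nat.Prime 7) := ⟨by norm_num⟩
  obtain ⟨f, f1, g, f2⟩ := exists_hom
  let φ : PSL(2, ZMod 7) →* SL(3, ZMod 2) := QuotientGroup.lift _ f fun x hx => by
    rcases SL_isScal_iff.1 (SL_mem_center_iff.1 hx) with rfl | rfl
    · exact map_one f
    · exact f1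
  have := ProjectiveSpecialLinearGroup.rank_two_simple (F := ZMod 7) (by simp)
  have hi : Function.Injective φ := (MonoidHom.ker_eq_bot_iff φ).1
    ((MonoidHom.normal_ker φ).eq_bot_or_eq_top.resolve_right fun e =>
      f2 (show (pr g : PSL(2, ZMod 7)) ∈ φ.ker from e ▸ trivial))
  have c1 := card_PSL_odd (F := ZMod 7) two_ne_zero7
  have c2 := GLn.card_SL_eq (F := ZMod 2) 2
  simp only [Nat.card_zmod] at c1 c2
  have hZ : Subgroup.center SL(3, ZMod 2) = ⊥ := eq_bot_iff.2 fun x hx => by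
    obtain ⟨r, h1, h2⟩ := Matrix.SpecialLinearGroup.mem_center_iff.1 hx
    have : r = 1 := (by decide : ∀ r : ZMod 2, r ^ 3 = 1 → r = 1) r (by simpa using h1)
    exact Subtype.ext (by rw [← h2, this, map_one]; rfl)
  exact ⟨(Forms.centerQuotEquiv (Lin.slEquiv (FiniteField.ringEquivOfCardEq (hF.trans (ZMod.card 7).symm)))).trans
    ((MulEquiv.ofBijective φ ((Nat.bijective_iff_injective_and_card φ).2 ⟨hi, by
      rw [show Nat.card SL(3, ZMod 2) = 168 from c2.trans (by decide)]; omega⟩)).trans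
    ((QuotientGroup.quotientMulEquivOfEq hZ).trans QuotientGroup.quotientBot).symm)⟩

theorem card_psl {F : Type*} [Field F] [Fintype F] (hF : Fintype.card F = 4 ∨ Fintype.card F = 5) :
    Nat.card PSL(2, F) = 60 := by
  by_cases h2 : (2 : F) = 0
  · have := card_PSL_even h2
    have h := FiniteField.even_card_of_char_two (F := F) (by
      have : CharP F 2 := (CharP.charP_iff_prime_eq_zero Nat.prime_two).2 h2
      exact ringChar.eq F 2)
    rw [Nat.card_eq_fintype_card (α := F), show Fintype.card F = 4 by omega] at this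
    exact this
  · have := card_PSL_odd h2
    have h := FiniteField.odd_card_of_char_ne_two (F := F) fun e => h2 (by
      have := ringChar.of_eq e
      exact CharTwo.two_eq_zero)
    rw [Nat.card_eq_fintype_card (α := F), show Fintype.card F = 5 by omega] at this
    omega

theorem iso45 {F F' : Type*} [Field F] [Fintype F] [Field F'] [Fintype F']
    (hF : Fintype.card F = 4 ∨ Fintype.card F = 5) (hF' : Fintype.card F' = 4 ∨ Fintype.card F' = 5) :
    Nonempty (PSL(2, F) ≃* PSL(2, F')) := by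
  have := ProjectiveSpecialLinearGroup.rank_two_simple (F := F) (by rw [Nat.card_eq_fintype_card]; omega)
  have := ProjectiveSpecialLinearGroup.rank_two_simple (F := F') (by rw [Nat.card_eq_fintype_card]; omega)
  obtain ⟨e⟩ := R3.a5_of_card (card_psl hF) fun N hN h => by
    rw [hN.eq_bot_or_eq_top.resolve_left h, Subgroup.card_top, card_psl hF]; norm_num
  obtain ⟨e'⟩ := R3.a5_of_card (card_psl hF') fun N hN h => by
    rw [hN.eq_bot_or_eq_top.resolve_left h, Subgroup.card_top, card_psl hF']; norm_num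
  exact ⟨e.trans e'.symm⟩

end Cfsg.Agent.T2R
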