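import Cfsg.Agent.Lib.T2R.Gen
import Cfsg.Agent.Lib.T2R.Concl
import Cfsg.Agent.Lib.T2R.Iso
import Cfsg.Agent.Lib.Char.SL2C

/-!
# Doubly transitive actions of `PSL(2, q)`
-/

set_option autoImplicit false

namespace Cfsg.Agent.T2R

open MulAction Cfsg.Agent.T2 Cfsg.Agent.SL2 Cfsg.Agent.Ch2 Cfsg.Agent.Char Matrix
open scoped MatrixGroups

theorem root_cases {ζ : ℂˣ} {n f : ℕ} (hn : n ≠ 0) (h : ζ ^ n = 1) (hf : (f : ℂ) - 1 = -((ζ : ℂ) + (ζ⁻¹ : ℂˣ))) :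
    ζ ^ 6 = 1 ∨ ζ ^ 4 = 1 := by
  have n1 : ‖(ζ : ℂ)‖ = 1 := Complex.norm_eq_one_of_pow_eq_one (by rw [← Units.val_pow_eq_pow_val, h]; rfl) hn
  have n2 : ‖(f : ℂ) - 1‖ ≤ 2 := by
    rw [hf, norm_neg]
    refine (norm_add_le _ _).trans ?_
    rw [Units.val_inv_eq_inv_val, norm_inv, n1]; norm_num
  have n3 : f ≤ 3 := by
    have := (norm_sub_norm_le (f : ℂ) 1).trans n2
    rw [Complex.norm_natCast, norm_one] at this
    exact_mod_cast (show (f : ℝ) ≤ 3 by linarith)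
  have e : (ζ : ℂ) ^ 2 + (f - 1) * ζ + 1 = 0 := by
    rw [hf]; linear_combination -ζ.mul_inv
  simp only [Units.ext_iff, Units.val_pow_eq_pow_val, Units.val_one]
  interval_cases f <;> push_cast at e
  · exact Or.inl (by linear_combination ((ζ : ℂ) + 1) * ((ζ : ℂ) ^ 3 - 1) * e)
  · exact Or.inr (by linear_combination ((ζ : ℂ) ^ 2 - 1) * e)
  · exact Or.inl (by linear_combination ((ζ : ℂ) - 1) * ((ζ : ℂ) ^ 3 + 1) * e)
  · have : (ζ : ℂ) + 1 = 0 := pow_eq_zero_iff two_ne_zero |>.1 (by linear_combination e)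
    exact Or.inr (by linear_combination ((ζ : ℂ) - 1) * ((ζ : ℂ) ^ 2 + 1) * this)

variable {Ω : Type*}

theorem psl2_core {F : Type*} [Field F] [Fintype F] (hq : 4 ≤ Fintype.card F) [MulAction PSL(2, F) Ω]
    [FaithfulSMul PSL(2, F) Ω] [Finite Ω] (h : Two PSL(2, F) Ω) :
    Nat.card Ω = Fintype.card F + 1 ∨ (Fintype.card F = 4 ∨ Fintype.card F = 9) ∧ Nat.card Ω = 6 ∨
      Nat.card Ω = Fintype.card F ∧ (Fintype.card F = 5 ∨ Fintype.card F = 7 ∨ Fintype.card F = 11) := by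
  classical
  have := nontrivial_of_faithful (G := PSL(2, F)) (Ω := Ω)
  have hχ := isIrr_comp pr pr_surjective (isIrr_chi h)
  obtain ⟨k, hk⟩ : ∃ k, Nat.card Ω = k + 1 := ⟨Nat.card Ω - 1, by have : 0 < Nat.card Ω := Nat.card_pos; omega⟩
  have hd := mul_pred_dvd h
  have hf := card_dvd_factorial (G := PSL(2, F)) (Ω := Ω)
  obtain ⟨p, hp⟩ : ∃ p, Fintype.card F = p + 1 := ⟨Fintype.card F - 1, by omega⟩
  have hs : Nat.card F * (Nat.card F ^ 2 - 1) = (p + 1) * p * (p + 2) := by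
    rw [Nat.card_eq_fintype_card, hp, show (p + 1) ^ 2 = p * (p + 2) + 1 by ring, Nat.add_sub_cancel, mul_assoc]
  have ho : (2 : F) ≠ 0 → 2 * Nat.card PSL(2, F) = (p + 1) * p * (p + 2) := fun e => hs ▸ card_PSL_odd e
  have hG : Nat.card PSL(2, F) = (p + 1) * p * (p + 2) ∨ 2 * Nat.card PSL(2, F) = (p + 1) * p * (p + 2) :=
    (em ((2 : F) = 0)).imp (fun e => hs ▸ card_PSL_even e) ho
  have h60 : 60 ≤ (p + 1) * p * (p + 2) :=
    Nat.mul_le_mul (Nat.mul_le_mul (show 4 ≤ p + 1 by omega) (show 3 ≤ p by omega)) (show 5 ≤ p + 2 by omega)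
  rw [hk, Nat.add_sub_cancel] at hd
  obtain ⟨c, hc⟩ := exists_noRoot_SL (F := F)
  obtain ⟨x, hx⟩ := (isCyclic_Ct hc).exists_generator
  have ox : orderOf x = p + 2 := by rw [orderOf_eq_card_of_forall_mem_zpowers hx, card_Ct hc, hp]
  have hsc : ∀ j, IsScal (x ^ j).1.1 → p + 2 ∣ j * 2 := fun j hj => by
    rw [← ox, orderOf_dvd_iff_pow_eq_one, pow_mul]
    rcases SL_isScal_iff.1 hj with e | e <;> exact Subtype.ext (by rw [Subgroup.coe_pow, e]; simp)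
  have hx1 : ¬ IsScal x.1.1 := fun e => by
    have := Nat.le_of_dvd (by norm_num) (hsc 1 (by rwa [pow_one]))
    omega
  rcases irr_cases_deg hc hχ (n := k) (by simp [chi_one, hk]) with ⟨-, e⟩ | ⟨-, e⟩ | ⟨-, e⟩ | ⟨⟨θ, -, e1⟩, e⟩ |
    ⟨⟨α, χ', a1, a2, -⟩, e⟩ | ⟨⟨θ, χ', a1, a2, H⟩, -⟩
  · rw [hk, e] at hf
    have : Nat.card PSL(2, F) ≤ 2 := Nat.le_of_dvd two_pos hf
    omega
  · exact Or.inl (by omega)
  · have d1 : (k + 1) * k ∣ (p + 1) * p * (p + 2) := hG.elim (fun e => e ▸ hd) fun e => e ▸ hd.mul_left 2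
    rw [show k = p + 2 by omega] at d1
    have d2 := Nat.dvd_of_mul_dvd_mul_right (by omega) d1
    have d3 : p + 2 + 1 ∣ 6 := by
      obtain ⟨r, rfl⟩ : ∃ r, p = r + 2 := ⟨p - 2, by omega⟩
      rw [show (r + 2 + 1) * (r + 2) = (r + 2 + 2 + 1) * r + 6 by ring] at d2
      exact (Nat.dvd_add_right (dvd_mul_right _ _)).1 d2
    have := Nat.le_of_dvd (by norm_num) d3
    omega
  · have v : ∀ y : Ct c, ¬ IsScal y.1.1 → (Nat.card (fixedBy Ω (pr y.1)) : ℂ) - 1 = -((θ y : ℂ) + ((θ y)⁻¹ : ℂˣ)) :=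
      fun y hy => (congrFun e1 y).trans (R_ell hc θ y hy)
    have w : ∀ j, θ x ^ j = 1 → p + 2 ∣ j * 2 := fun j hj => hsc j (by
      by_contra hy
      have := v _ hy
      rw [map_pow, hj, sub_eq_iff_eq_add] at this
      norm_num at this
      exact absurd (by exact_mod_cast this : (Nat.card (fixedBy Ω (pr (x ^ j).1)) : ℤ) = -1) (by omega))
    refine Or.inr (Or.inr ⟨by omega, ?_⟩)
    rcases root_cases (orderOf_pos x).ne' (by rw [← map_pow, pow_orderOf_eq_one, map_one]) (v x hx1) with e | e <;>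
    · have d := w _ e
      have := Nat.le_of_dvd (by norm_num) d
      have : 3 ≤ p := by omega
      have : p ≤ 10 := by omega
      interval_cases p <;> omega
  · have e2 := ho (two_ne_zero_of_mulChar a1 a2)
    obtain ⟨r, rfl⟩ : ∃ r, k = r + 2 := ⟨k - 2, by omega⟩
    obtain rfl : p = 2 * r + 2 := by omega
    have e3 : Nat.card PSL(2, F) = (2 * r + 3) * (2 * r + 2) * (r + 2) :=
      Nat.eq_of_mul_eq_mul_left two_pos (by rw [e2]; ring)
    rw [e3] at hd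
    have d2 := Nat.dvd_of_mul_dvd_mul_right (by omega) hd
    have d3 : r + 2 + 1 ∣ 12 := by
      obtain ⟨t, rfl⟩ : ∃ t, r = t + 1 := ⟨r - 1, by omega⟩
      rw [show (2 * (t + 1) + 3) * (2 * (t + 1) + 2) = (t + 1 + 2 + 1) * (4 * t + 2) + 12 by ring] at d2
      exact (Nat.dvd_add_right (dvd_mul_right _ _)).1 d2
    have := Nat.le_of_dvd (by norm_num) d3
    have : r ≤ 9 := by omega
    have : 1 ≤ r := by omega
    have h21 : Fintype.card F ≠ 21 := fun e => by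
      obtain ⟨l, _, n, hl, hn⟩ := FiniteField.card' F
      have d3 := Nat.prime_three.dvd_of_dvd_pow (show 3 ∣ l ^ (n : ℕ) by omega)
      have d7 := (show Nat.Prime 7 by norm_num).dvd_of_dvd_pow (show 7 ∣ l ^ (n : ℕ) by omega)
      have := (Nat.prime_dvd_prime_iff_eq Nat.prime_three hl).1 d3
      omega
    rw [hk, e3] at hf
    interval_cases r <;> first | omega | norm_num [Nat.factorial] at hf
  · exfalso
    have h2 := two_ne_zero_of_torus hc a1 a2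
    have v : ∀ y : Ct c, ¬ IsScal y.1.1 →
        (Nat.card (fixedBy Ω (pr y.1)) : ℂ) - 1 = -((θ y : ℂ) + ((θ y)⁻¹ : ℂˣ)) / 2 := fun y hy =>
      (H.apply_ss h2 (SL_trace_sq_ne_of_noRoot ((SL_noRoot_iff _).mp (noRoot_of_mem_Ct hc y.2 hy)))).trans
        (by rw [R_ell hc θ y hy])
    have t2 : θ x ^ 2 = 1 := by simpa using DFunLike.congr_fun a1 x
    have t1 : θ x = -1 := (show θ x = 1 ∨ θ x = -1 by
      rw [Units.ext_iff, Units.ext_iff]
      exact sq_eq_one_iff.1 (show (θ x : ℂ) ^ 2 = 1 from congrArg Units.val t2)).resolve_left fun e => a2 (MonoidHom.ext fun y => by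
      obtain ⟨j, rfl⟩ := Subgroup.mem_zpowers_iff.1 (hx y)
      rw [map_zpow, e, _root_.one_zpow, MonoidHom.one_apply])
    have v1 := v x hx1
    have v2 := v (x ^ 2) fun e => by
      have := Nat.le_of_dvd (by norm_num) (hsc 2 e)
      omega
    rw [t1, sub_eq_iff_eq_add] at v1
    rw [map_pow, t2, sub_eq_iff_eq_add] at v2
    norm_num at v1 v2
    have v3 : Nat.card (fixedBy Ω (pr x.1)) = 2 := by exact_mod_cast v1
    obtain ⟨⟨a, ha⟩⟩ := (Nat.card_pos_iff.1 (v3 ▸ two_pos)).1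
    exact Set.ncard_ne_zero_of_mem (a := a) (by rw [mem_fixedBy, sq, mul_smul]; exact (congrArg _ ha).trans ha)
      (Set.toFinite _) v2

theorem psl2 {G : Type*} [Group G] [MulAction G Ω] [FaithfulSMul G Ω] [Finite Ω] {F : Type} [Field F] [Fintype F]
    (hq : 4 ≤ Fintype.card F) (e : G ≃* ProjectiveSpecialLinearGroup (Fin 2) F) (h : Two G Ω) :
    Concl G (Nat.card Ω) := by
  obtain ⟨_, _, h'⟩ := transport e h
  rcases psl2_core hq h' with h1 | ⟨h1 | h1, h2⟩ | ⟨h2, h1 | h1 | h1⟩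
  · exact Or.inr (Or.inl ⟨F, _, _, hq, ⟨e⟩, h1⟩)
  · have : Fact (Nat.Prime 5) := ⟨by norm_num⟩
    obtain ⟨e'⟩ := iso45 (F' := ZMod 5) (Or.inl h1) (Or.inr (ZMod.card 5))
    exact Or.inr (Or.inl ⟨ZMod 5, inferInstance, inferInstance, by simp, ⟨e.trans e'⟩, by simp [h2]⟩)
  · exact Or.inr (Or.inr (Or.inr (Or.inr (Or.inr (Or.inl ⟨F, _, _, h1, ⟨e⟩, h2⟩)))))
  · let _ := Fintype.ofFinite (GaloisField 2 2)
    have c : Fintype.card (GaloisField 2 2) = 4 := by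
      rw [← Nat.card_eq_fintype_card, GaloisField.card 2 2 two_ne_zero]; rfl
    obtain ⟨e'⟩ := iso45 (F' := GaloisField 2 2) (Or.inr h1) (Or.inl c)
    exact Or.inr (Or.inl ⟨GaloisField 2 2, _, _, c.ge, ⟨e.trans e'⟩, by omega⟩)
  · obtain ⟨e'⟩ := iso27 h1
    exact Or.inl ⟨ZMod 2, inferInstance, inferInstance, 3, le_rfl, ⟨e.trans e'⟩, by simp [h2, h1]⟩
  · exact Or.inr (Or.inr (Or.inr (Or.inr (Or.inr (Or.inr (Or.inl ⟨F, _, _, h1, ⟨e⟩, h2.trans h1⟩))))))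

end Cfsg.Agent.T2R
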