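import Cfsg.Agent.Lib.T2R.Gen
import Cfsg.Agent.Lib.T2R.Concl
import Cfsg.Agent.Lib.Ree.Tori
import Cfsg.Agent.Lib.Ree.Deg

/-!
# Doubly transitive actions of the small Ree groups
-/

set_option autoImplicit false

namespace Cfsg.Agent.T2R

open MulAction Cfsg.Agent.T2 Subgroup Cfsg.Agent.Ree Cfsg.Agent.Chev

theorem ree_arith {s q a b c k : ℕ} (hs : 1 ≤ s) (hq : q = 12 * s ^ 2 + 12 * s + 3) (ha : a = 12 * s ^ 2 + 18 * s + 7)
    (hb : b = 12 * s ^ 2 + 6 * s + 1) (hc : c + 1 = q ^ 2) (h1 : 3 * q ∣ k + 1) (hk : a * b ≤ k)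
    (h : (∃ j y, k = a * b * j ∧ c = j * y) ∨ (∃ j y, k = a * j ∧ c = j * y) ∨ (∃ j y, k = b * j ∧ c = j * y) ∨ k ∣ c) :
    k = c := by
  have s2 : 1 ≤ s ^ 2 := Nat.one_le_pow _ _ hs
  have hab : a * b + q = q ^ 2 + 1 := by rw [ha, hb, hq]; ring
  have q0 : 27 ≤ q := by omega
  have c0 : 0 < c := by nlinarith
  obtain ⟨u, hu⟩ := h1
  obtain ⟨x, hx⟩ : ∃ x : ℤ, (q : ℤ) = 3 * x := ⟨4 * s ^ 2 + 4 * s + 1, by rw [hq]; push_cast; ring⟩
  rcases h with ⟨j, y, e1, e2⟩ | ⟨j, y, e1, e2⟩ | ⟨j, y, e1, e2⟩ | ⟨y, e2⟩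
  · exfalso
    have y0 : 0 < y := Nat.pos_of_ne_zero fun e => by simp [e] at e2; omega
    have j0 : 0 < j := Nat.pos_of_ne_zero fun e => by simp [e] at e2; omega
    zify at hab hc hu e1 e2 q0 y0 j0
    have e3 : (k : ℤ) = (q ^ 2 - q + 1) * j := by rw [e1]; linear_combination j * hab
    obtain ⟨v, hv⟩ : ∃ v : ℤ, (j : ℤ) + 1 = q * v := ⟨3 * u - (q - 1) * j, by linear_combination hu - e3⟩
    obtain ⟨w, hw⟩ : ∃ w : ℤ, (y : ℤ) - 1 = q * w := ⟨v * y - q, by linear_combination y * hv + e2 - hc⟩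
    have v1 : 1 ≤ v := by nlinarith
    have j1 : (q : ℤ) - 1 ≤ j := by nlinarith
    have y1 : (y : ℤ) ≤ q + 1 := by nlinarith
    have w0 : 0 ≤ w := by nlinarith
    have w1 : w < 2 := by nlinarith
    interval_cases w
    · have e4 : (y : ℤ) = 1 := by linarith
      have e5 : (j : ℤ) = q ^ 2 - 1 := by rw [e4] at e2; linarith
      have : (q : ℤ) ^ 3 - q ^ 2 + 1 = 3 * u := mul_left_cancel₀ (show (q : ℤ) ≠ 0 by omega) (by
        rw [e5] at e3; linear_combination hu - e3)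
      rw [hx, show (3 * x) ^ 3 - (3 * x) ^ 2 + 1 = 3 * (9 * x ^ 3 - 3 * x ^ 2) + 1 by ring] at this
      omega
    · have e4 : (y : ℤ) = q + 1 := by linarith
      have e5 : (j : ℤ) = q - 1 := mul_right_cancel₀ (show (q : ℤ) + 1 ≠ 0 by omega) (by
        rw [e4] at e2; linear_combination hc - e2)
      have : (q : ℤ) ^ 2 - 2 * q + 2 = 3 * u := mul_left_cancel₀ (show (q : ℤ) ≠ 0 by omega) (by
        rw [e5] at e3; linear_combination hu - e3)
      rw [hx, show (3 * x) ^ 2 - 2 * (3 * x) + 2 = 3 * (3 * x ^ 2 - 2 * x) + 2 by ring] at this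
      omega
  · exfalso
    have y0 : 0 < y := Nat.pos_of_ne_zero fun e => by simp [e] at e2; omega
    have j1 : b ≤ j := Nat.le_of_mul_le_mul_left (e1 ▸ hk) (by omega)
    have h4 : b * y ≤ c := e2 ▸ Nat.mul_le_mul_right _ j1
    have h5 : y < 2 * q := by
      by_contra hy
      have : b * (2 * q) ≤ b * y := Nat.mul_le_mul_left _ (by omega)
      have : q * q ≤ (2 * b) * q := Nat.mul_le_mul_right _ (by omega)
      nlinarith
    zify at hab hc hu e1 e2 q0 y0 h5 ha hq hs s2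
    obtain ⟨v, hv⟩ : ∃ v : ℤ, (y : ℤ) - (6 * s + 4) = q * v :=
      ⟨3 * u * y - a * q + 1, by linear_combination y * hu - y * e1 + a * e2 - a * hc + ha - hq⟩
    have v0 : -1 < v := by nlinarith
    have v1 : v < 2 := by nlinarith
    interval_cases v
    · have e4 : (y : ℤ) = 6 * s + 4 := by linarith
      have : (6 * s + 4 : ℤ) * ((6 * s + 2) * ((6 * s + 3) ^ 2 + 1) - 9 * j) = 8 := by
        rw [e4] at e2; rw [hq] at hc; linear_combination 9 * e2 - 9 * hc
      have := Int.le_of_dvd (by norm_num) (Dvd.intro _ this)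
      omega
    · have e4 : (y : ℤ) = a := by linarith
      have : (a : ℤ) * (j - b) = q - 2 := by rw [e4] at e2; linear_combination hc - e2 - hab
      have := Int.le_of_dvd (by omega) (Dvd.intro _ this)
      omega
  · exfalso
    have y0 : 0 < y := Nat.pos_of_ne_zero fun e => by simp [e] at e2; omega
    have j1 : a ≤ j := Nat.le_of_mul_le_mul_left (by rw [mul_comm, ← e1]; exact hk) (show 0 < b by omega)
    have h4 : a * y ≤ c := e2 ▸ Nat.mul_le_mul_right _ j1
    have h5 : y < q := by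
      by_contra hy
      have : a * q ≤ a * y := Nat.mul_le_mul_left _ (by omega)
      have : q * q ≤ a * q := Nat.mul_le_mul_right _ (by omega)
      nlinarith
    zify at hab hc hu e1 e2 q0 y0 h5 hb hq hs s2
    obtain ⟨v, hv⟩ : ∃ v : ℤ, (y : ℤ) - b = q * v :=
      ⟨3 * u * y - b * q, by linear_combination y * hu - y * e1 + b * e2 - b * hc⟩
    have v0 : -1 < v := by nlinarith
    have v1 : v < 1 := by nlinarith
    obtain rfl : v = 0 := by omega
    have e4 : (y : ℤ) = b := by linarith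
    have : (b : ℤ) * (j - a - 1) = 6 * s := by rw [e4] at e2; linear_combination hc - e2 - hab + hq - hb
    have := Int.le_of_dvd (by omega) (Dvd.intro _ this)
    omega
  · have y0 : 0 < y := Nat.pos_of_ne_zero fun e => by simp [e] at e2; omega
    have : y < 2 := by
      by_contra hy
      have p1 : k * 2 ≤ k * y := Nat.mul_le_mul_left _ (by omega)
      have p2 : 27 * q ≤ q * q := Nat.mul_le_mul_right _ q0
      rw [sq] at hab hc
      omega
    obtain rfl : y = 1 := by omega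
    omega

variable {K : Type*} [Field K] {m : ℕ} {Γ : Type*} [Group Γ] {Ω : Type*}

theorem two_B (R : RG K m Γ) : Two Γ (Γ ⧸ R.B) := by
  have key : ∀ a b : Γ ⧸ R.B, a ≠ b → ∃ g : Γ, g • ((1 : Γ) : Γ ⧸ R.B) = a ∧ g • (R.w : Γ ⧸ R.B) = b := fun a b h => by
    induction a using QuotientGroup.induction_on with
    | _ x =>
    induction b using QuotientGroup.induction_on with
    | _ z =>
    obtain h1 | ⟨y, hy, c, hc, e⟩ := R.exists_coset (x⁻¹ * z)
    · exact absurd (QuotientGroup.eq.2 h1) h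
    · refine ⟨x * y, (QuotientGroup.eq.2 ?_).symm, QuotientGroup.eq.2 ?_⟩
      · simpa using R.U_le_B hy
      · show (x * y * R.w)⁻¹ * z ∈ R.B
        rwa [mul_assoc, mul_inv_rev, mul_assoc, e, inv_mul_cancel_left]
  intro a b c d h1 h2
  obtain ⟨g, g1, g2⟩ := key a b h1
  obtain ⟨k, k1, k2⟩ := key c d h2
  exact ⟨k * g⁻¹, by rw [← g1, mul_smul, inv_smul_smul, k1], by rw [← g2, mul_smul, inv_smul_smul, k2]⟩

theorem mem_fix_iff {B : Subgroup Γ} {g c : Γ} : g • (c : Γ ⧸ B) = c ↔ c⁻¹ * g * c ∈ B := by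
  rw [eq_comm, MulAction.Quotient.smul_mk, QuotientGroup.eq, smul_eq_mul, mul_assoc]

/-- There is no subgroup of order `q (q² - q + 1)`. -/
theorem no_sub [Finite Γ] (R : RT K m Γ) {D : Subgroup Γ} {a b : ℕ} (hb : b = 12 * R.s ^ 2 + 6 * R.s + 1)
    (hab : a * b * (Nat.card K + 1) = Nat.card K ^ 3 + 1) (hco : (a * b).Coprime (Nat.card R.B))
    (hD : Nat.card D = Nat.card K * (a * b)) : False := by
  classical
  let _ := Fintype.ofFinite D
  have hs := R.s_pos
  have hq := R.q_eq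
  have q3 := R.card
  have ho : ∀ (g : D) (c : Γ), c⁻¹ * g * c ∈ R.B → orderOf g ∣ Nat.card R.B := fun g c hc => by
    have := R.B.orderOf_dvd_natCard hc
    rwa [← MulAut.conj_inv_apply, MulEquiv.orderOf_eq, orderOf_coe] at this
  have h1 : ∀ g : D, g ≠ 1 → Nat.card (fixedBy (Γ ⧸ R.B) g) ≤ 1 := fun g hg => by
    refine Finite.card_le_one_iff_subsingleton.2 ⟨fun ⟨x, hx⟩ ⟨y, hy⟩ => Subtype.ext ?_⟩
    induction x using QuotientGroup.induction_on with
    | _ x =>
    induction y using QuotientGroup.induction_on with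
    | _ y =>
    have hx' := mem_fix_iff.1 (show (g : Γ) • (x : Γ ⧸ R.B) = x from hx)
    have hy' := mem_fix_iff.1 (show (g : Γ) • (y : Γ ⧸ R.B) = y from hy)
    have d : orderOf g ∣ 3 ^ (2 * m + 1) := q3 ▸
      (hco.coprime_dvd_right (ho g x hx')).symm.dvd_of_dvd_mul_right (hD ▸ orderOf_dvd_natCard g)
    have hU := R.mem_U_of_pow hx' (n := 2 * m + 1) (by
      rw [← MulAut.conj_inv_apply, ← map_pow, ← coe_pow, orderOf_dvd_iff_pow_eq_one.1 d, coe_one, map_one])
    refine (QuotientGroup.eq.2 (R.mem_B_of_conj_mem hU (fun e => hg ?_) (by simpa [mul_assoc] using hy'))).symm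
    rwa [← MulAut.conj_inv_apply, map_eq_one_iff _ (MulEquiv.injective _), OneMemClass.coe_eq_one] at e
  obtain ⟨l, hl, l1⟩ := Nat.exists_prime_and_dvd (show b ≠ 1 by nlinarith)
  have := Fact.mk hl
  obtain ⟨y, hy⟩ := exists_prime_orderOf_dvd_card' (G := D) l (hD ▸ (l1.mul_left a).mul_left _)
  have hyc : Nat.card (centralizer ({(y : Γ)} : Set Γ)) = b := by
    have e : ¬ (orderOf (y : Γ)).Coprime (12 * R.s ^ 2 + 6 * R.s + 1) := by
      rw [orderOf_coe, hy, ← hb, hl.coprime_iff_not_dvd, not_not]; exact l1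
    obtain ⟨g, hg⟩ := R.T3.exists_conj e
    have e2 := R.T3.cen _ hg (R.T3.sq_ne_one (by rwa [← MulAut.conj_inv_apply, MulEquiv.orderOf_eq]))
    have e3 := R.T3.card_T
    rw [← e2, one_mul, ← hb] at e3
    rw [← e3, ← card_conj_eq (a := (y : Γ)) (IsConj.refl _), ← card_conj_eq (a := g⁻¹ * y * g) (IsConj.refl _)]
    exact Nat.card_congr ((MulAut.conj g⁻¹).toEquiv.subtypeEquiv fun x => by
      simp only [MulEquiv.toEquiv_eq_coe, MulEquiv.coe_toEquiv, MulAut.conj_apply, inv_inv]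
      constructor <;> intro e
      · calc _ = g⁻¹ * (x * y * x⁻¹) * g := by group
          _ = _ := by rw [e]
      · calc _ = g * (g⁻¹ * x * g * (g⁻¹ * y * g) * (g⁻¹ * x * g)⁻¹) * g⁻¹ := by group
          _ = _ := by rw [e]; group)
  let S : Finset D := Finset.univ.filter fun g => Nat.card (fixedBy (Γ ⧸ R.B) g) = 0
  have h2 : Nat.card D ≤ b * S.card := by
    rw [Nat.card_eq_fintype_card, ← Finset.card_univ]
    refine Finset.card_le_mul_card_image_of_maps_to (f := fun d : D => d * y * d⁻¹) (fun d _ => ?_) b fun z _ => ?_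
    · refine Finset.mem_filter.2 ⟨Finset.mem_univ _, Nat.card_eq_zero.2 (Or.inl ⟨fun ⟨x, hx⟩ => ?_⟩)⟩
      induction x using QuotientGroup.induction_on with
      | _ x =>
      have := ho _ x (mem_fix_iff.1 (show ((d * y * d⁻¹ : D) : Γ) • (x : Γ ⧸ R.B) = x from hx))
      rw [← MulAut.conj_apply, MulEquiv.orderOf_eq, hy] at this
      exact hl.one_lt.ne' (Nat.eq_one_of_dvd_coprimes hco (l1.mul_left a) this)
    · rcases (Finset.univ.filter fun d : D => d * y * d⁻¹ = z).eq_empty_or_nonempty with e | ⟨d, hd⟩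
      · rw [e]; exact Nat.zero_le _
      · rw [← hyc, ← card_conj_eq (x := (z : Γ)) (isConj_iff.2 ⟨d, congrArg Subtype.val (Finset.mem_filter.1 hd).2⟩),
          ← Nat.card_eq_finsetCard]
        exact Nat.card_le_card_of_injective
          (fun x => ⟨(x.1 : Γ), congrArg Subtype.val (Finset.mem_filter.1 x.2).2⟩)
          fun x x' e => Subtype.ext (Subtype.ext (Subtype.ext_iff.1 e :))
  have s1 := sum_fix (G := D) (Ω := Γ ⧸ R.B)
  have n1 : Nat.card (Γ ⧸ R.B) = Nat.card K ^ 3 + 1 := R.index_B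
  have s2 : ∑ g ∈ Finset.univ.erase (1 : D), Nat.card (fixedBy (Γ ⧸ R.B) g) + S.card ≤ Nat.card D - 1 := by
    have : S ⊆ Finset.univ.erase 1 := fun g hg => Finset.mem_erase.2 ⟨fun e => by
      have := (Finset.mem_filter.1 hg).2
      rw [e, card_fix_one, n1] at this
      omega, Finset.mem_univ _⟩
    rw [← Finset.sum_sdiff this, Finset.sum_eq_zero (s := S) fun g hg => (Finset.mem_filter.1 hg).2, add_zero,
      Nat.card_eq_fintype_card, ← Finset.card_univ, ← Finset.card_erase_of_mem (Finset.mem_univ (1 : D)),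
      ← Finset.card_sdiff_add_card_eq_card this, add_le_add_iff_right, Finset.card_eq_sum_ones]
    exact Finset.sum_le_sum fun g hg => h1 g (Finset.ne_of_mem_erase (Finset.mem_sdiff.1 hg).1)
  rw [← Finset.add_sum_erase _ _ (Finset.mem_univ 1), card_fix_one, n1, ← hab] at s1
  rw [hD] at s1 s2 h2
  generalize Nat.card (orbitRel.Quotient D (Γ ⧸ R.B)) = o at s1
  generalize ∑ g ∈ Finset.univ.erase (1 : D), Nat.card (fixedBy (Γ ⧸ R.B) g) = N at s1 s2
  have hbq : b < Nat.card K := by omega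
  have p0 : 0 < a * b := Nat.pos_of_ne_zero fun e => by rw [e] at hab; omega
  generalize a * b = p at *
  generalize Nat.card K = q at *
  have o2 : 2 ≤ o := by
    by_contra h
    have : o * (q * p) ≤ 1 * (q * p) := Nat.mul_le_mul_right _ (by omega)
    nlinarith
  have : 2 * (q * p) ≤ o * (q * p) := Nat.mul_le_mul_right _ o2
  have : 0 < q * p := Nat.mul_pos (by omega) p0
  have : S.card < p := by
    have : p * (q + 1) = q * p + p := by ring
    omega
  nlinarith

theorem ree_core [Finite Γ] (R : RT K m Γ) [MulAction Γ Ω] [FaithfulSMul Γ Ω] [Finite Ω] (h : Two Γ Ω) :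
    Nat.card Ω = Nat.card K ^ 3 + 1 := by
  have := R.isSimpleGroup
  have := nontrivial_of_faithful (G := Γ) (Ω := Ω)
  refine (card_eq_or_trans h (two_B R.toRG) ((1 : Γ) : Γ ⧸ R.B)).elim (fun e => e.trans R.index_B)
    fun hB => False.elim ?_
  have h0 := card_dvd_of_trans (B := R.B) fun a b => by
    obtain ⟨p, h1, h2⟩ := hB a b
    exact ⟨p, by simpa using mem_fix_iff.1 h1, h2⟩
  obtain ⟨k, ρ, hk, hρ⟩ := exists_rep h
  have h2 := R.le_finrank ρ hρ
  have hs := R.s_pos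
  have hq := R.q_eq
  have q3 := R.card
  obtain ⟨a, ha⟩ : ∃ a, a = 12 * R.s ^ 2 + 18 * R.s + 7 := ⟨_, rfl⟩
  obtain ⟨b, hb⟩ : ∃ a, a = 12 * R.s ^ 2 + 6 * R.s + 1 := ⟨_, rfl⟩
  obtain ⟨d, hd⟩ : ∃ d, d = 12 * R.s ^ 2 + 12 * R.s + 2 := ⟨_, rfl⟩
  have hd' : Nat.card K - 1 = d := by omega
  have hab : a * b + Nat.card K = Nat.card K ^ 2 + 1 := by rw [ha, hb, hq]; ring
  have hab' : a * b * (Nat.card K + 1) = Nat.card K ^ 3 + 1 := by rw [ha, hb, hq]; ring
  have hΓ : Nat.card Γ = Nat.card K ^ 3 * (a * b * (d * (Nat.card K + 1))) := by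
    rw [R.card_eq, hd', ← hab']; ring
  have hcB := R.card_B
  rw [hd'] at hcB
  have a0 : 0 < a := by omega
  have b0 : 0 < b := by omega
  obtain ⟨Ta⟩ : Nonempty (TorD Γ a 1 6) := ⟨ha ▸ R.T4⟩
  obtain ⟨Tb⟩ : Nonempty (TorD Γ b 1 6) := ⟨hb ▸ R.T3⟩
  have ia : Ta.T.index = Nat.card R.B * (b * (Nat.card K + 1)) := Nat.eq_of_mul_eq_mul_left a0 (by
    have := Ta.T.card_mul_index
    rw [Ta.card_T, one_mul] at this
    rw [this, hΓ, hcB]; ring)
  have ib : Tb.T.index = Nat.card R.B * (a * (Nat.card K + 1)) := Nat.eq_of_mul_eq_mul_left b0 (by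
    have := Tb.T.card_mul_index
    rw [Tb.card_T, one_mul] at this
    rw [this, hΓ, hcB]; ring)
  have ca := Ta.hall
  have cb := Tb.hall
  have key : ∀ n, ∀ T : TorD Γ n 1 6, n.Coprime (Nat.card R.B) → n ∣ k ∨ n.Coprime k := fun n T c => by
    have e := T.card_T
    rw [one_mul] at e
    have := dvd_or_coprime h (T := T.T) (fun x hx x1 => T.cen x hx fun e2 => x1 (by
      have d1 := T.T.orderOf_dvd_natCard hx
      rw [e] at d1
      exact orderOf_eq_one_iff.1 (Nat.eq_one_of_dvd_coprimes (Nat.coprime_two_right.2 T.odd) d1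
        (orderOf_dvd_of_pow_eq_one e2)))) (by rw [e]; exact T.hall) (by rw [e]; exact c.coprime_dvd_right h0)
    rwa [e, ← hk, Nat.add_sub_cancel] at this
  rw [ia] at ca
  rw [ib] at cb
  have ka := key _ Ta ca.coprime_mul_right_right
  have kb := key _ Tb cb.coprime_mul_right_right
  obtain ⟨α, β, hαβ⟩ := exists_pair_ne Ω
  have h3 := (stabilizer Γ (α, β)).card_mul_index
  rw [index_stab h hαβ, ← hk, Nat.add_sub_cancel, hΓ] at h3
  simp only [Module.finrank_fin_fun] at h2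
  have h2' : a * b ≤ k := by
    have : Nat.card K ≤ Nat.card K ^ 2 := Nat.le_self_pow (by omega) _
    omega
  have h4 : 3 ^ (2 * m + 1 + 1) ∣ k + 1 := pow_dvd_of_lt (e := (2 * m + 1) * 3) (c := d) Nat.prime_three (by omega)
    (by rwa [pow_mul, ← q3, ← hcB, hk]) (by rw [← q3]; nlinarith)
  have h5 : k.Coprime (Nat.card K ^ 3) := by
    rw [q3]
    refine (((Nat.prime_three.coprime_iff_not_dvd.2 fun e => ?_).symm).pow_right _).pow_right _
    have : 3 ∣ k + 1 := (dvd_pow_self 3 (by omega)).trans h4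
    omega
  have h6 : k ∣ a * b * (d * (Nat.card K + 1)) :=
    h5.dvd_of_dvd_mul_left (h3 ▸ ((dvd_mul_left _ _).mul_left _))
  have hc : d * (Nat.card K + 1) + 1 = Nat.card K ^ 2 := by rw [hd, hq]; ring
  have e := ree_arith hs hq ha hb hc (by rwa [pow_succ', ← q3] at h4) h2'
    (four_cases h6 ca.coprime_mul_left_right.coprime_mul_right_right ka kb a0 b0)
  refine no_sub R (D := stabilizer Γ (α, β)) hb hab'
    (Nat.Coprime.mul_left ca.coprime_mul_right_right cb.coprime_mul_right_right)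
    (Nat.eq_of_mul_eq_mul_right (show 0 < (k + 1) * k by nlinarith) ?_)
  rw [h3, ← e, show k + 1 = Nat.card K ^ 2 by omega]
  ring

theorem ree {G : Type*} [Group G] [MulAction G Ω] [FaithfulSMul G Ω] [Finite Ω] (hG : Lie.IsoRee G)
    (h : Two G Ω) : Concl G (Nat.card Ω) := by
  obtain ⟨F, _, _, m, hm, hF, ⟨e⟩⟩ := hG
  obtain ⟨_, ⟨R⟩⟩ := exists_rt hm hF
  obtain ⟨_, _, h'⟩ := transport e h
  exact Or.inr (Or.inr (Or.inr (Or.inr (Or.inl
    ⟨F, _, _, m, hm, hF, ⟨e⟩, by rw [ree_core R h', Nat.card_eq_fintype_card]⟩))))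

end Cfsg.Agent.T2R
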